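import Cfsg.Agent.Lib.Helper26.GL42.R
import Cfsg.Agent.Lib.Helper70.GL42.A
import Cfsg.Agent.Lib.Helper70.GL42.K
import Cfsg.Agent.Lib.Helper41.GL42.C

set_option autoImplicit false

namespace Cfsg.Agent.Lib.Helper26.GL42

open MulAction Cfsg.Agent.Lib.Helper70.GL42 Cfsg.Agent.Lib.Helper41.GL42

theorem perm_main (G : Subgroup (Equiv.Perm (Fin 8))) (hA : G ≤ alternatingGroup (Fin 8))
    (h1 : G ≠ ⊥) (hN : NSN G) (h : Nat.card G ≠ 1344) : Concl G := by
  have : Nontrivial G := (Subgroup.nontrivial_iff_ne_bot G).2 h1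
  have hns := hN.not_isSolvable
  obtain ⟨Ω, _, _, K, ⟨e⟩, h5, h8, hprim, hAK⟩ := reduce G hA hns hN
  have hnsK : ¬ Group.IsSolvable K := fun hs =>
    hns (Group.isSolvable_of_isSolvable_injective (f := e.toMonoidHom) e.injective)
  have hNK : NSN K := hN.congr e
  have hcK : Nat.card K ≠ 1344 := by rwa [← Nat.card_congr e.toEquiv]
  refine Concl.congr e.symm ?_
  have hcases : Fintype.card Ω = 5 ∨ Fintype.card Ω = 6 ∨ Fintype.card Ω = 7 ∨ Fintype.card Ω = 8 := by
    omega
  rcases hcases with h | h | h | h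
  · exact case56 (Or.inl h) K hnsK hNK
  · exact case56 (Or.inr h) K hnsK hNK
  · have := hprim.toIsPretransitive
    exact case7 h K (hAK (by omega)) hnsK
  · exact case8 h K (hAK (by omega)) hnsK hNK hcK

theorem main (e : alternatingGroup (Fin 8) ≃* GL (Fin 4) (ZMod 2))
    (H : Subgroup (GL (Fin 4) (ZMod 2))) (hH : H ≠ ⊥) (hO : Cfsg.pPrimeCore 2 ↥H = ⊥)
    (hO2 : Cfsg.pCore 2 ↥H = ⊥) : Concl H := by
  have hN : NSN H := nsn_of_cores hO hO2
  have hc : Nat.card H ≠ 1344 := fun hc => no1344 H hc hN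
  let f : GL (Fin 4) (ZMod 2) →* Equiv.Perm (Fin 8) :=
    (alternatingGroup (Fin 8)).subtype.comp e.symm.toMonoidHom
  have hf : Function.Injective f := by
    intro a b hab
    exact e.symm.injective (Subtype.ext hab)
  let E : H ≃* H.map f := H.equivMapOfInjective f hf
  have hA : H.map f ≤ alternatingGroup (Fin 8) := by
    rintro _ ⟨x, _, rfl⟩
    exact (e.symm x).2
  have h1 : H.map f ≠ ⊥ := by
    intro h
    exact hH ((Subgroup.map_eq_bot_iff_of_injective H hf).1 h)
  exact Concl.congr E.symm (perm_main (H.map f) hA h1 (hN.congr E)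
    (by rwa [← Nat.card_congr E.toEquiv]))

end Cfsg.Agent.Lib.Helper26.GL42
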