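import Cfsg.Agent.Lib.Helper26.GL42.Api
import Cfsg.Agent.S0493

set_option autoImplicit false

namespace Cfsg.Agent.Lib.Helper26.GL42

theorem solvable_of_card_lt_60_aux (n : ℕ) : ∀ (Y : Type*) [Group Y] [Finite Y], Nat.card Y = n →
    n < 60 → Group.IsSolvable Y := by
  induction n using Nat.strong_induction_on with
  | _ n ih =>
    intro Y _ _ hY hn
    by_cases hsub : Subsingleton Y
    · infer_instance
    have hnt : Nontrivial Y := not_subsingleton_iff_nontrivial.1 hsub
    by_cases hs : IsSimpleGroup Y
    · by_cases hc : IsCyclic Y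
      · exact Group.isSolvable_of_comm (fun a b => hc.commGroup.mul_comm a b)
      · have := Cfsg.Agent.S0493.result hc (by omega)
        omega
    · -- a proper nontrivial normal subgroup
      have : ∃ M : Subgroup Y, M.Normal ∧ M ≠ ⊥ ∧ M ≠ ⊤ := by
        by_contra hcon
        push Not at hcon
        exact hs ⟨fun M hM => by
          by_cases h : M = ⊥
          · exact Or.inl h
          · exact Or.inr (hcon M hM h)⟩
      obtain ⟨M, hM, hb, ht⟩ := this
      have h1 := M.card_mul_index
      have hidx : M.index ≠ 1 := fun h => ht (Subgroup.index_eq_one.1 h)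
      have hcM : Nat.card M ≠ 1 := fun h => hb (Subgroup.card_eq_one.1 h)
      have hpos : 0 < Nat.card M := Nat.card_pos
      have hipos : 0 < M.index := Nat.pos_of_ne_zero M.index_ne_zero_of_finite
      have hlt1 : Nat.card M < n := by
        rw [← hY, ← h1]
        nlinarith [show 2 ≤ M.index by omega]
      have hlt2 : Nat.card (Y ⧸ M) < n := by
        rw [← Subgroup.index_eq_card, ← hY, ← h1]
        nlinarith [show 2 ≤ Nat.card M by omega]
      have s1 := ih _ hlt1 M rfl (by omega)
      have s2 := ih _ hlt2 (Y ⧸ M) rfl (by omega)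
      exact (Group.isSolvable_iff_subgroup_quotient M).2 ⟨s1, s2⟩

theorem solvable_of_card_lt_60 {Y : Type*} [Group Y] [Finite Y] (h : Nat.card Y < 60) :
    Group.IsSolvable Y :=
  solvable_of_card_lt_60_aux _ Y rfl h

theorem simple_of_card_60 {Y : Type*} [Group Y] [Finite Y] (h : Nat.card Y = 60)
    (hns : ¬ Group.IsSolvable Y) : IsSimpleGroup Y := by
  have hnt : Nontrivial Y := by
    rw [← Finite.one_lt_card_iff_nontrivial]; omega
  refine ⟨fun M hM => ?_⟩
  by_contra hcon
  push Not at hcon
  obtain ⟨hb, ht⟩ := hcon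
  have h1 := M.card_mul_index
  have hidx : M.index ≠ 1 := fun h => ht (Subgroup.index_eq_one.1 h)
  have hcM : Nat.card M ≠ 1 := fun h => hb (Subgroup.card_eq_one.1 h)
  have hpos : 0 < Nat.card M := Nat.card_pos
  have hipos : 0 < M.index := Nat.pos_of_ne_zero M.index_ne_zero_of_finite
  have hlt1 : Nat.card M < 60 := by
    rw [← h, ← h1]
    nlinarith [show 2 ≤ M.index by omega]
  have hlt2 : Nat.card (Y ⧸ M) < 60 := by
    rw [← Subgroup.index_eq_card, ← h, ← h1]
    nlinarith [show 2 ≤ Nat.card M by omega]
  exact hns ((Group.isSolvable_iff_subgroup_quotient M).2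
    ⟨solvable_of_card_lt_60 hlt1, solvable_of_card_lt_60 hlt2⟩)

end Cfsg.Agent.Lib.Helper26.GL42
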