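import Cfsg.Agent.Lib.Helper26.GL42.Api
import Cfsg.Agent.Lib.Helper70.GL42.R2

set_option autoImplicit false

namespace Cfsg.Agent.Lib.Helper26.GL42

open MulAction Cfsg.Agent.Lib.Helper70.GL42

theorem commutator_eq_top_of {X : Type*} [Group X] (T : Subgroup X) (hT : ⁅T, T⁆ = T) :
    commutator T = ⊤ := by
  apply Subgroup.map_injective T.subtype_injective
  rw [Subgroup.map_subtype_commutator, hT, ← MonoidHom.range_eq_map, T.range_subtype]

/-- the moved points of a normal subgroup, as an invariant subset -/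
def movedSub {G α : Type*} [Group G] [MulAction G α] (T : Subgroup G) [T.Normal] :
    SubMulAction G α where
  carrier := {x | ∃ t ∈ T, t • x ≠ x}
  smul_mem' := by
    rintro g x ⟨t, ht, hx⟩
    refine ⟨g * t * g⁻¹, ‹T.Normal›.conj_mem t ht g, ?_⟩
    rw [← mul_smul, inv_mul_cancel_right, mul_smul]
    exact fun h => hx (smul_left_cancel g h)

/-- the fixed points of a normal subgroup, as an invariant subset -/
def fixedSub {G α : Type*} [Group G] [MulAction G α] (T : Subgroup G) [T.Normal] :
    SubMulAction G α where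
  carrier := {x | ∀ t ∈ T, t • x = x}
  smul_mem' := by
    intro g x hx t ht
    have h1 := hx (g⁻¹ * t * g) (by simpa using ‹T.Normal›.conj_mem t ht g⁻¹)
    calc t • g • x = g • ((g⁻¹ * t * g) • x) := by simp [← mul_smul, mul_assoc]
      _ = g • x := by rw [h1]

section
variable {G α : Type*} [Group G] [MulAction G α] [Finite α] (T : Subgroup G) [T.Normal]

theorem five_le_orbit (hT : ⁅T, T⁆ = T) {x : α} (hx : x ∈ movedSub (α := α) T) :
    5 ≤ (orbit T x).ncard := by
  by_contra hcon
  push Not at hcon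
  have h1 := index_stabilizer T x
  have hpos : 0 < (orbit T x).ncard :=
    (Set.ncard_pos (Set.toFinite _)).2 ⟨x, mem_orbit_self x⟩
  have h2 := perfect_index (commutator_eq_top_of T hT) (stabilizer T x) (by omega) (by omega)
  obtain ⟨t, ht, hne⟩ := hx
  have : (⟨t, ht⟩ : T) ∈ stabilizer T x := by rw [h2]; trivial
  exact hne this

omit [Finite α] in
theorem orbit_subset_moved {x : α} (hx : x ∈ movedSub (α := α) T) :
    orbit T x ⊆ (movedSub (α := α) T : Set α) := by
  rintro _ ⟨t, rfl⟩
  exact (movedSub (α := α) T).smul_mem (t : G) hx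

theorem moved_trans (hT : ⁅T, T⁆ = T) (hα : Nat.card α ≤ 8) {x y : α}
    (hx : x ∈ movedSub (α := α) T) (hy : y ∈ movedSub (α := α) T) : ∃ t ∈ T, t • x = y := by
  rcases orbit.eq_or_disjoint (G := T) x y with h | h
  · have : y ∈ orbit T x := by rw [h]; exact mem_orbit_self y
    obtain ⟨t, rfl⟩ := this
    exact ⟨t, t.2, rfl⟩
  · exfalso
    have h1 := five_le_orbit T hT hx
    have h2 := five_le_orbit T hT hy
    have h3 := Set.ncard_union_eq h (Set.toFinite _) (Set.toFinite _)
    have h4 : (orbit T x ∪ orbit T y).ncard ≤ Nat.card α := by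
      rw [← Set.ncard_univ]
      exact Set.ncard_le_ncard (Set.subset_univ _) (Set.toFinite _)
    omega

end

theorem reduce (G : Subgroup (Equiv.Perm (Fin 8))) (hA : G ≤ alternatingGroup (Fin 8))
    (hns : ¬ Group.IsSolvable G) (hN : NSN G) :
    ∃ (Ω : Type) (_ : Fintype Ω) (_ : DecidableEq Ω) (K : Subgroup (Equiv.Perm Ω)),
      Nonempty (G ≃* K) ∧ 5 ≤ Fintype.card Ω ∧ Fintype.card Ω ≤ 8 ∧ IsPreprimitive K Ω ∧
        (7 ≤ Fintype.card Ω → K ≤ alternatingGroup Ω) := by
  classical
  obtain ⟨T, hTn, hTb, hTp⟩ := exists_perfect_normal hns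
  let M := movedSub (α := Fin 8) T
  let F := fixedSub (α := Fin 8) T
  let φ : G →* Equiv.Perm M := MulAction.toPermHom G M
  let ψ : G →* Equiv.Perm F := MulAction.toPermHom G F
  have hMF : ∀ x : Fin 8, x ∉ M → x ∈ F := by
    intro x hx t ht
    by_contra hne
    exact hx ⟨t, ht, hne⟩
  have hFM : ∀ x : Fin 8, x ∈ F → x ∉ M := by
    rintro x hx ⟨t, ht, hne⟩
    exact hne (hx t ht)
  have hex : ∃ x, x ∈ M := by
    by_contra hcon
    push Not at hcon
    apply hTb
    rw [eq_bot_iff]
    intro t ht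
    rw [Subgroup.mem_bot]
    apply Subtype.ext
    apply Equiv.ext
    intro x
    exact hMF x (hcon x) t ht
  obtain ⟨x0, hx0⟩ := hex
  have hc8 : Nat.card (Fin 8) ≤ 8 := by simp
  have hcardM5 : 5 ≤ Nat.card M := by
    refine (five_le_orbit T hTp hx0).trans ?_
    have : Nat.card M = (M : Set (Fin 8)).ncard := Nat.card_coe_set_eq _
    rw [this]
    exact Set.ncard_le_ncard (orbit_subset_moved T hx0) (Set.toFinite _)
  have hcardMF : Nat.card M + Nat.card F = 8 := by
    have h1 : Nat.card M = (M : Set (Fin 8)).ncard := Nat.card_coe_set_eq _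
    have h2 : Nat.card F = (F : Set (Fin 8)).ncard := Nat.card_coe_set_eq _
    have h3 : (F : Set (Fin 8)) = (M : Set (Fin 8))ᶜ := by
      ext x
      exact ⟨fun h => hFM x h, fun h => hMF x h⟩
    rw [h1, h2, h3, Set.ncard_add_ncard_compl]
    simp
  have hker : φ.ker = ⊥ := by
    apply hN _ inferInstance
    have : Group.IsSolvable (Equiv.Perm F) := perm_isSolvable_of_card_le_four F (by omega)
    apply Group.isSolvable_of_isSolvable_injective (f := ψ.comp φ.ker.subtype)
    intro a b hab
    apply Subtype.ext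
    apply Subtype.ext
    apply Equiv.ext
    intro x
    by_cases hx : x ∈ M
    · have ha : φ a.1 = 1 := a.2
      have hb : φ b.1 = 1 := b.2
      have ha' := congrArg Subtype.val (DFunLike.congr_fun ha ⟨x, hx⟩)
      have hb' := congrArg Subtype.val (DFunLike.congr_fun hb ⟨x, hx⟩)
      exact ha'.trans hb'.symm
    · exact congrArg Subtype.val (DFunLike.congr_fun hab ⟨x, hMF x hx⟩)
  have hinj : Function.Injective φ := (MonoidHom.ker_eq_bot_iff φ).1 hker
  have htrans : IsPretransitive T M := by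
    refine ⟨fun x y => ?_⟩
    obtain ⟨t, ht, h⟩ := moved_trans T hTp hc8 x.2 y.2
    exact ⟨⟨t, ht⟩, Subtype.ext h⟩
  have hprimT : IsPreprimitive T M :=
    perfect_primitive (commutator_eq_top_of T hTp) (by omega)
  have hprim : IsPreprimitive φ.range M := by
    let φ' : T → φ.range := fun t => ⟨φ t, ⟨t, rfl⟩⟩
    let f : M →ₑ[φ'] M := { toFun := id, map_smul' := fun t x => rfl }
    exact IsPreprimitive.of_surjective (f := f) Function.surjective_id
  refine ⟨M, inferInstance, inferInstance, φ.range, ⟨MonoidHom.ofInjective hinj⟩, ?_, ?_, hprim, ?_⟩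
  · rw [← Nat.card_eq_fintype_card]; exact hcardM5
  · rw [← Nat.card_eq_fintype_card]; omega
  · intro h7
    rw [← Nat.card_eq_fintype_card] at h7
    have hF1 : Nat.card F ≤ 1 := by omega
    have hFs : Subsingleton F := (Finite.card_le_one_iff_subsingleton).1 hF1
    rintro _ ⟨g, rfl⟩
    rw [Equiv.Perm.mem_alternatingGroup]
    have h₁ : ∀ x : Fin 8, (g : Equiv.Perm (Fin 8)) x ∈ M ↔ x ∈ M := by
      intro x
      constructor
      · intro h
        have h' := M.smul_mem g⁻¹ h
        have e : g⁻¹ • ((g : Equiv.Perm (Fin 8)) x) = x := by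
          change g⁻¹ • (g • x) = x
          rw [inv_smul_smul]
        rwa [e] at h'
      · intro h
        exact M.smul_mem g h
    have h₂ : ∀ x : Fin 8, (g : Equiv.Perm (Fin 8)) x ≠ x → x ∈ M := by
      intro x hne
      by_contra hx
      have hxF := hMF x hx
      have hgF : (g : Equiv.Perm (Fin 8)) x ∈ F := F.smul_mem g hxF
      exact hne (congrArg Subtype.val (hFs.elim ⟨_, hgF⟩ ⟨x, hxF⟩))
    have h3 : φ g = Equiv.Perm.subtypePerm (g : Equiv.Perm (Fin 8)) h₁ := by
      ext x
      rfl
    rw [h3, Equiv.Perm.sign_subtypePerm _ h₁ h₂]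
    exact Equiv.Perm.mem_alternatingGroup.1 (hA g.2)

end Cfsg.Agent.Lib.Helper26.GL42
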